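import Cfsg.Agent.Lib.Helper43.AG.GTCommon

/-!
# S3072, package [GT1]: `C_P(U) ≰ U`, Frattini for `C_G(U) ⊴ N_G(U)`.
-/

set_option autoImplicit false

namespace Cfsg.Agent.Lib.Helper43.AG

open Cfsg Cfsg.Agent.Lib.Helper33 Cfsg.Agent.Lib.Helper22.AG

universe u

/-- [GT1] -/
theorem pkgGT1 : PkgGT1.{u} := by
  intro G _ _ p _ P U M hP hUP hSyl hnot hCM hD
  haveI hCXn : ((Subgroup.centralizer (U : Set G)).subgroupOf (Nz U)).Normal := cent_normal U
  obtain ⟨Q, hQ⟩ := Cfsg.Agent.Lib.Helper49.exists_sylow_inf_subnormal (sylOf hSyl)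
    ((Subgroup.centralizer (U : Set G)).subgroupOf (Nz U)) hCXn.isSubnormal
  have hfr := Sylow.normalizer_sup_eq_top Q
  have hQmap : (Q : Subgroup ↥((Subgroup.centralizer (U : Set G)).subgroupOf (Nz U))).map
      ((Subgroup.centralizer (U : Set G)).subgroupOf (Nz U)).subtype =
      ((sylOf hSyl : Sylow p ↥(Nz U)) : Subgroup ↥(Nz U)) ⊓
        (Subgroup.centralizer (U : Set G)).subgroupOf (Nz U) := by
    rw [hQ, Subgroup.subgroupOf_map_subtype]
  rw [hQmap] at hfr
  have hmapSC := map_sylOf_inf hSyl ((Subgroup.centralizer (U : Set G)).subgroupOf (Nz U))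
  rw [cent_map] at hmapSC
  have hlt : U < U ⊔ (P ⊓ Subgroup.centralizer (U : Set G)) :=
    lt_of_le_of_ne le_sup_left (fun h => hnot (sup_eq_left.mp h.symm))
  have hNtop : Subgroup.normalizer (U : Set G) = (⊤ : Subgroup ↥(Nz U)).map (Nz U).subtype :=
    (top_map_subtype (Nz U)).symm
  rw [hNtop, ← hfr, Subgroup.map_sup]
  apply sup_le
  · refine le_trans ?_ (hD _ hlt (sup_le hUP inf_le_left))
    apply le_inf (Subgroup.map_subtype_le _)
    intro g hg
    have h1 := Subgroup.le_normalizer_map _ hg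
    rw [hmapSC] at h1
    have h2 : g ∈ Nz U := Subgroup.map_subtype_le _ hg
    exact mem_normalizer_sup h2 h1
  · rw [cent_map]
    exact hCM

end Cfsg.Agent.Lib.Helper43.AG
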