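import Cfsg.Agent.Lib.Helper43.AG.GTCommon

/-!
# S3072, package [GT2]: `P ∩ O_{p',p}(N) ≠ U`, Frattini for `O_{p',p}(N)`.
-/

set_option autoImplicit false

namespace Cfsg.Agent.Lib.Helper43.AG

open Cfsg Cfsg.Agent.Lib.Helper33 Cfsg.Agent.Lib.Helper22.AG

universe u

/-- [GT2] -/
theorem pkgGT2 : PkgGT2.{u} := by
  intro G _ _ p _ P U M hP hUP hSyl hne hCM hD
  have hU : IsPGroup p U := hP.to_le hUP
  have hfr := Cfsg.Agent.Lib.Helper49.normalizer_inf_pPrimePCore_sup (sylOf hSyl)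
  have hmapSK := map_sylOf_inf hSyl (Cfsg.pPrimePCore p ↥(Nz U))
  have hlt : U < P ⊓ (Cfsg.pPrimePCore p ↥(Nz U)).map (Nz U).subtype :=
    lt_of_le_of_ne (le_inf hUP (u_le_K U hU)) (Ne.symm hne)
  have hNtop : Subgroup.normalizer (U : Set G) = (⊤ : Subgroup ↥(Nz U)).map (Nz U).subtype :=
    (top_map_subtype (Nz U)).symm
  rw [hNtop, ← hfr, Subgroup.map_sup]
  apply sup_le
  · refine le_trans ?_ (hD _ hlt inf_le_left)
    apply le_inf (Subgroup.map_subtype_le _)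
    intro g hg
    have h1 := Subgroup.le_normalizer_map _ hg
    rwa [hmapSK] at h1
  · exact (map_pPrimeCore_le_centralizer U hU).trans hCM

end Cfsg.Agent.Lib.Helper43.AG
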