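import Cfsg.Agent.Lib.Helper43.AG.GTCommon

/-!
# S3072, package [GT3]: `C_P(U) ≤ U` and `P ∩ O_{p',p}(N) = U` give `O_{p',p}(N) = U C_G(U)`.
-/

set_option autoImplicit false

namespace Cfsg.Agent.Lib.Helper43.AG

open Cfsg Cfsg.Agent.Lib.Helper33 Cfsg.Agent.Lib.Helper22.AG

universe u

section gt3

variable {G : Type u} [Group G] [Finite G] {p : ℕ} [Fact p.Prime]

theorem mem_smul_sylow' {X : Type u} [Group X] (g : X) (S : Sylow p X) (x : X) :
    x ∈ ((g • S : Sylow p X) : Subgroup X) ↔ g⁻¹ * x * g ∈ (S : Subgroup X) := by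
  rw [Sylow.coe_subgroup_smul, Subgroup.mem_pointwise_smul_iff_inv_smul_mem]
  simp [MulAut.smul_def, MulAut.conj_apply]

/-- Every `p`-subgroup of `C_G(U)` lies in `U`, when `P ∩ C_G(U) ≤ U`. -/
theorem pSubgroup_cent_le (P U : Subgroup G) (hSyl : SylIn p (P ⊓ Nz U) (Nz U))
    (hPC : P ⊓ Subgroup.centralizer (U : Set G) ≤ U)
    (T : Subgroup ↥(Nz U)) (hT : IsPGroup p T)
    (hTC : T ≤ (Subgroup.centralizer (U : Set G)).subgroupOf (Nz U)) :
    T ≤ U.subgroupOf (Nz U) := by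
  obtain ⟨S', hS'⟩ := hT.exists_le_sylow
  obtain ⟨x, hx⟩ := MulAction.exists_smul_eq ↥(Nz U) (sylOf hSyl) S'
  intro t ht
  have h1 : t ∈ ((x • sylOf hSyl : Sylow p ↥(Nz U)) : Subgroup ↥(Nz U)) := hx ▸ hS' ht
  rw [mem_smul_sylow', sylOf_coe] at h1
  have h1' : ((x⁻¹ * t * x : ↥(Nz U)) : G) ∈ P ⊓ Nz U := Subgroup.mem_subgroupOf.mp h1
  have h2 : x⁻¹ * t * x ∈ (Subgroup.centralizer (U : Set G)).subgroupOf (Nz U) := by
    have := (cent_normal U).conj_mem t (hTC ht) x⁻¹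
    simpa using this
  have h3 : ((x⁻¹ * t * x : ↥(Nz U)) : G) ∈ U := hPC ⟨h1'.1, Subgroup.mem_subgroupOf.mp h2⟩
  have h4 : x⁻¹ * t * x ∈ U.subgroupOf (Nz U) := Subgroup.mem_subgroupOf.mpr h3
  have h5 := (Subgroup.normal_in_normalizer (H := U)).conj_mem _ h4 x
  have h6 : x * (x⁻¹ * t * x) * x⁻¹ = t := by group
  rwa [h6] at h5

theorem cent_le_K (P U : Subgroup G) (hU : IsPGroup p U) (hSyl : SylIn p (P ⊓ Nz U) (Nz U))
    (hPC : P ⊓ Subgroup.centralizer (U : Set G) ≤ U) :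
    Subgroup.centralizer (U : Set G) ≤ (Cfsg.pPrimePCore p ↥(Nz U)).map (Nz U).subtype := by
  haveI hCXn : ((Subgroup.centralizer (U : Set G)).subgroupOf (Nz U)).Normal := cent_normal U
  obtain ⟨T⟩ : Nonempty (Sylow p ↥((Subgroup.centralizer (U : Set G)).subgroupOf (Nz U))) :=
    inferInstance
  have hTU : (T : Subgroup ↥((Subgroup.centralizer (U : Set G)).subgroupOf (Nz U))).map
      ((Subgroup.centralizer (U : Set G)).subgroupOf (Nz U)).subtype ≤ U.subgroupOf (Nz U) :=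
    pSubgroup_cent_le P U hSyl hPC _ (T.isPGroup'.map _) (Subgroup.map_subtype_le _)
  have hcentral : Subgroup.normalizer
      ((T : Subgroup ↥((Subgroup.centralizer (U : Set G)).subgroupOf (Nz U))) :
        Set ↥((Subgroup.centralizer (U : Set G)).subgroupOf (Nz U))) ≤
      Subgroup.centralizer
        ((T : Subgroup ↥((Subgroup.centralizer (U : Set G)).subgroupOf (Nz U))) :
          Set ↥((Subgroup.centralizer (U : Set G)).subgroupOf (Nz U))) := by
    intro y _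
    rw [Subgroup.mem_centralizer_iff]
    intro t ht
    have htU : ((t : ↥(Nz U)) : G) ∈ U :=
      Subgroup.mem_subgroupOf.mp (hTU (Subgroup.mem_map_of_mem _ ht))
    have hyC : ((y : ↥(Nz U)) : G) ∈ Subgroup.centralizer (U : Set G) :=
      Subgroup.mem_subgroupOf.mp y.2
    have := Subgroup.mem_centralizer_iff.mp hyC _ htU
    exact Subtype.ext (Subtype.ext this)
  have hcomp := Cfsg.Agent.Lib.Helper50.pPrimeCore_isComplement' T hcentral
  have hsup := hcomp.sup_eq_top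
  have h2 : (Subgroup.centralizer (U : Set G)).subgroupOf (Nz U) ≤
      Cfsg.pPrimePCore p ↥(Nz U) := by
    have h1 := (top_map_subtype ((Subgroup.centralizer (U : Set G)).subgroupOf (Nz U))).symm
    rw [← hsup, Subgroup.map_sup] at h1
    rw [h1]
    apply sup_le
    · exact (Cfsg.Agent.Lib.Helper22.pPrimeCore_map_subtype_le_of_normal p
        ((Subgroup.centralizer (U : Set G)).subgroupOf (Nz U))).trans
        (Cfsg.Agent.Lib.Helper49.pPrimeCore_le_pPrimePCore p _)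
    · exact hTU.trans (ux_le_pPrimePCore U hU)
  have := Subgroup.map_mono (f := (Nz U).subtype) h2
  rwa [cent_map] at this

end gt3

/-- [GT3] -/
theorem pkgGT3 : PkgGT3.{u} := by
  intro G _ _ p _ P U hP hUP hSyl hPC hPK
  have hU : IsPGroup p U := hP.to_le hUP
  apply le_antisymm
  · have h1 := Cfsg.Agent.Lib.Helper49.pPrimePCore_eq_sup (sylOf hSyl)
    have hmapSK := map_sylOf_inf hSyl (Cfsg.pPrimePCore p ↥(Nz U))
    calc (Cfsg.pPrimePCore p ↥(Nz U)).map (Nz U).subtype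
        = ((((sylOf hSyl : Sylow p ↥(Nz U)) : Subgroup ↥(Nz U)) ⊓ Cfsg.pPrimePCore p ↥(Nz U)) ⊔
            Cfsg.pPrimeCore p ↥(Nz U)).map (Nz U).subtype := congrArg _ h1
      _ = (((sylOf hSyl : Sylow p ↥(Nz U)) : Subgroup ↥(Nz U)) ⊓
            Cfsg.pPrimePCore p ↥(Nz U)).map (Nz U).subtype ⊔
            (Cfsg.pPrimeCore p ↥(Nz U)).map (Nz U).subtype := Subgroup.map_sup _ _ _
      _ ≤ U ⊔ Subgroup.centralizer (U : Set G) :=
          sup_le_sup (by rw [hmapSK]; exact hPK.le) (map_pPrimeCore_le_centralizer U hU)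
  · exact sup_le (u_le_K U hU) (cent_le_K P U hU hSyl hPC)

end Cfsg.Agent.Lib.Helper43.AG
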