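import Cfsg.Agent.Lib.Helper22.AG.Defs
import Cfsg.Agent.Lib.Helper22.PComp
import Cfsg.Agent.Lib.Helper49.PPrimeP
import Cfsg.Agent.Lib.Helper49.SylSub
import Cfsg.Agent.Lib.Helper50.Burnside

/-!
# S3072 (strong Alperin–Goldschmidt), shared lemmas for the packages [GT1], [GT2], [GT3]

Everything happens in `X = ↥N`, `N = N_G(U)`.
-/

set_option autoImplicit false

namespace Cfsg.Agent.Lib.Helper43.AG

open Cfsg Cfsg.Agent.Lib.Helper33 Cfsg.Agent.Lib.Helper22.AG

universe u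

section common

variable {G : Type u} [Group G]

/-- `N_G(U)`. -/
abbrev Nz (U : Subgroup G) : Subgroup G := Subgroup.normalizer (U : Set G)

theorem mem_normalizer_sup {A B : Subgroup G} {g : G}
    (hA : g ∈ Subgroup.normalizer (A : Set G)) (hB : g ∈ Subgroup.normalizer (B : Set G)) :
    g ∈ Subgroup.normalizer ((A ⊔ B : Subgroup G) : Set G) := by
  rw [mem_normalizer_iff_cj] at hA hB ⊢
  show (A ⊔ B).map _ = _
  rw [Subgroup.map_sup]
  exact congrArg₂ (· ⊔ ·) hA hB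

theorem top_map_subtype (N : Subgroup G) : (⊤ : Subgroup ↥N).map N.subtype = N := by
  rw [← MonoidHom.range_eq_map, Subgroup.range_subtype]

theorem cent_normal (U : Subgroup G) :
    ((Subgroup.centralizer (U : Set G)).subgroupOf (Nz U)).Normal := by
  rw [Subgroup.normal_subgroupOf_iff_le_normalizer (Subgroup.centralizer_le_normalizer _)]
  intro g hg
  rw [mem_normalizer_iff_cj] at hg ⊢
  rw [cj_centralizer, hg]

theorem cent_map (U : Subgroup G) :
    ((Subgroup.centralizer (U : Set G)).subgroupOf (Nz U)).map (Nz U).subtype =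
      Subgroup.centralizer (U : Set G) := by
  rw [Subgroup.subgroupOf_map_subtype]
  exact inf_eq_left.mpr (Subgroup.centralizer_le_normalizer _)

theorem u_map (U : Subgroup G) : (U.subgroupOf (Nz U)).map (Nz U).subtype = U := by
  rw [Subgroup.subgroupOf_map_subtype]
  exact inf_eq_left.mpr Subgroup.le_normalizer

variable [Finite G] {p : ℕ} [Fact p.Prime]

/-- The Sylow subgroup of `↥N` given by `SylIn`. -/
noncomputable def sylOf {T N : Subgroup G} (h : SylIn p T N) : Sylow p ↥N :=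
  (h.2.1.comap_subtype (K := N)).toSylow h.2.2

theorem sylOf_coe {T N : Subgroup G} (h : SylIn p T N) :
    ((sylOf h : Sylow p ↥N) : Subgroup ↥N) = T.subgroupOf N :=
  IsPGroup.toSylow_coe _ _

theorem map_sylOf_inf {P N : Subgroup G} (h : SylIn p (P ⊓ N) N) (A : Subgroup ↥N) :
    (((sylOf h : Sylow p ↥N) : Subgroup ↥N) ⊓ A).map N.subtype = P ⊓ A.map N.subtype := by
  rw [sylOf_coe]
  ext g
  constructor
  · rintro ⟨x, ⟨hx1, hx2⟩, rfl⟩
    have hx1' : (x : G) ∈ P ⊓ N := Subgroup.mem_subgroupOf.mp hx1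
    exact ⟨hx1'.1, x, hx2, rfl⟩
  · rintro ⟨hg1, a, ha, rfl⟩
    exact ⟨a, ⟨Subgroup.mem_subgroupOf.mpr ⟨hg1, a.2⟩, ha⟩, rfl⟩

theorem ux_le_pPrimePCore (U : Subgroup G) (hU : IsPGroup p U) :
    U.subgroupOf (Nz U) ≤ Cfsg.pPrimePCore p ↥(Nz U) := by
  intro x hx
  show QuotientGroup.mk' (Cfsg.pPrimeCore p ↥(Nz U)) x ∈
    Cfsg.pCore p (↥(Nz U) ⧸ Cfsg.pPrimeCore p ↥(Nz U))
  have hn : ((U.subgroupOf (Nz U)).map (QuotientGroup.mk' (Cfsg.pPrimeCore p ↥(Nz U)))).Normal :=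
    Subgroup.Normal.map Subgroup.normal_in_normalizer _ (QuotientGroup.mk'_surjective _)
  have hp' : IsPGroup p
      ((U.subgroupOf (Nz U)).map (QuotientGroup.mk' (Cfsg.pPrimeCore p ↥(Nz U)))) :=
    (hU.comap_subtype).map _
  exact (le_sSup (show _ ∈ {N : Subgroup (↥(Nz U) ⧸ Cfsg.pPrimeCore p ↥(Nz U)) |
    N.Normal ∧ IsPGroup p N} from ⟨hn, hp'⟩)) (Subgroup.mem_map_of_mem _ hx)

theorem u_le_K (U : Subgroup G) (hU : IsPGroup p U) :
    U ≤ (Cfsg.pPrimePCore p ↥(Nz U)).map (Nz U).subtype := by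
  have := Subgroup.map_mono (f := (Nz U).subtype) (ux_le_pPrimePCore U hU)
  rwa [u_map] at this

theorem map_pPrimeCore_le_centralizer (U : Subgroup G) (hU : IsPGroup p U) :
    (Cfsg.pPrimeCore p ↥(Nz U)).map (Nz U).subtype ≤ Subgroup.centralizer (U : Set G) := by
  rintro _ ⟨x, hx, rfl⟩
  rw [Subgroup.mem_centralizer_iff]
  intro u hu
  have huN : u ∈ Nz U := Subgroup.le_normalizer hu
  have hUX : IsPGroup p (U.subgroupOf (Nz U)) := hU.comap_subtype
  obtain ⟨n, hn⟩ := IsPGroup.iff_card.mp hUX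
  have hdis : Disjoint (U.subgroupOf (Nz U)) (Cfsg.pPrimeCore p ↥(Nz U)) := by
    apply Subgroup.disjoint_of_coprime_natCard
    rw [hn]
    exact (Nat.Coprime.pow_right n
      (Cfsg.Agent.Lib.Helper22.card_pPrimeCore_coprime p ↥(Nz U))).symm
  have := Subgroup.commute_of_normal_of_disjoint _ _ Subgroup.normal_in_normalizer
    (Cfsg.Agent.Lib.Helper22.pPrimeCore_normal' p ↥(Nz U)) hdis ⟨u, huN⟩ x
    (Subgroup.mem_subgroupOf.mpr hu) hx
  exact congrArg Subtype.val this.eq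

end common

end Cfsg.Agent.Lib.Helper43.AG
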